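import Mathlib

set_option autoImplicit false

namespace Cfsg.Agent.Helper3.S4172f

theorem central_mem_commutator {E : Type*} [Group E] [Finite E] (p : ℕ) [Fact p.Prime] (hperf : ∀ x : E, x ∈ commutator E) (R : Sylow p E) (z : E) (hz : z ∈ Subgroup.center E) (hzR : z ∈ (R : Subgroup E)) : z ∈ ⁅(R : Subgroup E), (R : Subgroup E)⁆ := by
  classical
  have hp : p.Prime := Fact.out
  let ϕ : (R : Subgroup E) →* Abelianization (R : Subgroup E) := Abelianization.of
  have hker : z ∈ (MonoidHom.transfer ϕ).ker :=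
    Abelianization.commutator_subset_ker _ (hperf z)
  have key : ∀ (k : ℕ) (g₀ : E), g₀⁻¹ * z ^ k * g₀ ∈ (R : Subgroup E) →
      g₀⁻¹ * z ^ k * g₀ = z ^ k := by
    intro k g₀ _
    have hc : z ^ k ∈ Subgroup.center E := Subgroup.pow_mem _ hz k
    rw [Subgroup.mem_center_iff] at hc
    rw [mul_assoc, ← hc g₀, inv_mul_cancel_left]
  have h1 := MonoidHom.transfer_eq_pow ϕ z key
  rw [MonoidHom.mem_ker] at hker
  rw [hker] at h1
  have h2 : (⟨z ^ (R : Subgroup E).index, MonoidHom.transfer_eq_pow_aux z key⟩ :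
      (R : Subgroup E)) ∈ commutator (R : Subgroup E) := by
    rw [← Abelianization.ker_of, MonoidHom.mem_ker]; exact h1.symm
  have h3 : z ^ (R : Subgroup E).index ∈ ⁅(R : Subgroup E), (R : Subgroup E)⁆ := by
    rw [← Subgroup.map_subtype_commutator]
    exact ⟨_, h2, rfl⟩
  obtain ⟨k, hk⟩ := R.2 ⟨z, hzR⟩
  have hzk : z ^ (p ^ k) = 1 := by
    have := congrArg Subtype.val hk
    simpa using this
  have hnd : ¬ p ∣ (R : Subgroup E).index := R.not_dvd_index
  have hcop : Nat.Coprime (R : Subgroup E).index (p ^ k) :=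
    Nat.Coprime.pow_right k ((Nat.Prime.coprime_iff_not_dvd hp).2 hnd).symm
  have e : (1 : ℤ) = ((R : Subgroup E).index : ℤ) * Nat.gcdA (R : Subgroup E).index (p ^ k)
      + ((p ^ k : ℕ) : ℤ) * Nat.gcdB (R : Subgroup E).index (p ^ k) := by
    rw [← Nat.gcd_eq_gcd_ab, hcop.gcd_eq_one]; simp
  have hfin : z = (z ^ (R : Subgroup E).index) ^ (Nat.gcdA (R : Subgroup E).index (p ^ k)) := by
    conv_lhs => rw [← zpow_one z, e, zpow_add, zpow_mul, zpow_mul, zpow_natCast, zpow_natCast,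
      hzk, one_zpow, mul_one]
  rw [hfin]
  exact Subgroup.zpow_mem _ h3 _

end Cfsg.Agent.Helper3.S4172f
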