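import Mathlib
import Cfsg.Agent.S4314

/-! Automorphism groups acting "semiregularly off a fixed subgroup" on a finite abelian group:
helper library for S4135 (helper3). -/

set_option autoImplicit false

namespace Cfsg.Agent.Helper3.Theta

variable {M : Type*} [CommGroup M] [Finite M]

/-- the `p`-property: a nontrivial element of `p`-power order cannot normalize a nontrivial
`p'`-subgroup, if `M` has a `p`-element outside `Z₀`. -/
theorem pprop (Z₀ : Subgroup M) (Γ : Subgroup (MulAut M))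
    (h1 : ∀ γ ∈ Γ, ∀ z ∈ Z₀, γ z = z)
    (h2 : ∀ γ ∈ Γ, γ ≠ 1 → ∀ c : M, γ c = c → c ∈ Z₀)
    (p : ℕ) [Fact p.Prime] (w : M) (hw : w ∉ Z₀) (k : ℕ) (hwp : w ^ p ^ k = 1)
    (B : Subgroup (MulAut M)) (hBΓ : B ≤ Γ) (hB1 : B ≠ ⊥) (hBp : ¬ p ∣ Nat.card B)
    (α : MulAut M) (hα : α ∈ Γ) (hα1 : α ≠ 1) (kα : ℕ) (hαp : α ^ p ^ kα = 1)
    (hnorm : ∀ b ∈ B, α * b * α⁻¹ ∈ B) : False := by
  classical
  haveI : Finite (MulAut M) :=
    Finite.of_injective (fun e : MulAut M => (e : M → M)) DFunLike.coe_injective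
  haveI : Fintype B := Fintype.ofFinite B
  have hp : p.Prime := Fact.out
  obtain ⟨n, hn⟩ : ∃ n : ℕ, n = Nat.card B := ⟨_, rfl⟩
  have hncard : Fintype.card B = n := by rw [hn, Nat.card_eq_fintype_card]
  obtain ⟨ν, hν⟩ : ∃ ν : M → M, ∀ u, ν u = ∏ b : B, (b : MulAut M) u := ⟨_, fun u => rfl⟩
  have hν_mul : ∀ u v, ν (u * v) = ν u * ν v := by
    intro u v
    rw [hν, hν, hν, ← Finset.prod_mul_distrib]
    exact Finset.prod_congr rfl (fun b _ => map_mul _ _ _)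
  have hν_one : ν 1 = 1 := by
    rw [hν]
    exact Finset.prod_eq_one (fun b _ => map_one _)
  have hν_pow : ∀ u (j : ℕ), ν (u ^ j) = ν u ^ j := by
    intro u j
    rw [hν, hν, ← Finset.prod_pow]
    exact Finset.prod_congr rfl (fun b _ => map_pow _ _ _)
  have hν_inv : ∀ u, ν u⁻¹ = (ν u)⁻¹ := by
    intro u
    have h := hν_mul u u⁻¹
    rw [mul_inv_cancel, hν_one] at h
    exact (inv_eq_of_mul_eq_one_right h.symm).symm
  have hν_Z : ∀ z ∈ Z₀, ν z = z ^ n := by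
    intro z hz
    rw [hν, Finset.prod_congr rfl (fun (b : B) _ => h1 (b : MulAut M) (hBΓ b.2) z hz), Finset.prod_const,
      Finset.card_univ, hncard]
  have hν_fix : ∀ (b₀ : MulAut M), b₀ ∈ B → ∀ u, b₀ (ν u) = ν u := by
    intro b₀ hb₀ u
    rw [hν, map_prod]
    exact Fintype.prod_equiv (Equiv.mulLeft (⟨b₀, hb₀⟩ : B)) _ _ (fun b => rfl)
  obtain ⟨b₀, hb₀, hb₀1⟩ : ∃ b₀ ∈ B, b₀ ≠ 1 := by
    by_contra hcon
    push Not at hcon
    apply hB1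
    rw [Subgroup.eq_bot_iff_forall]
    exact hcon
  have hνZ₀ : ∀ u, ν u ∈ Z₀ := fun u => h2 b₀ (hBΓ hb₀) hb₀1 (ν u) (hν_fix b₀ hb₀ u)
  have hν_α : ∀ u, ν (α u) = α (ν u) := by
    intro u
    have hf : Function.Bijective (fun b : B => (⟨α * b * α⁻¹, hnorm b b.2⟩ : B)) := by
      rw [← Finite.injective_iff_bijective]
      intro b b' hbb
      have h3 : α * (b : MulAut M) * α⁻¹ = α * (b' : MulAut M) * α⁻¹ := congrArg Subtype.val hbb
      apply Subtype.ext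
      exact mul_left_cancel (mul_right_cancel h3)
    rw [hν, hν, map_prod]
    rw [← Function.Bijective.prod_comp hf (fun b : B => (b : MulAut M) (α u))]
    refine Finset.prod_congr rfl (fun b _ => ?_)
    show α ((b : MulAut M) (α⁻¹ (α u))) = α ((b : MulAut M) u)
    rw [MulAut.inv_apply_self]
  have hcop : Nat.Coprime n (p ^ k) :=
    Nat.Coprime.pow_right k ((Nat.Prime.coprime_iff_not_dvd hp).2 (hn ▸ hBp)).symm
  obtain ⟨u₀, hu₀⟩ : ∃ u₀ : M, u₀ = w ^ n * (ν w)⁻¹ := ⟨_, rfl⟩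
  have hu₀ν : ν u₀ = 1 := by
    rw [hu₀, hν_mul, hν_pow, hν_inv, hν_Z (ν w) (hνZ₀ w), mul_inv_cancel]
  have hu₀p : u₀ ^ p ^ k = 1 := by
    rw [hu₀, mul_pow, ← pow_mul, mul_comm n, pow_mul, hwp, one_pow, one_mul, inv_pow,
      ← hν_pow, hwp, hν_one, inv_one]
  have hu₀Z : u₀ ∉ Z₀ := by
    intro h
    have h3 : w ^ n ∈ Z₀ := by
      have := Z₀.mul_mem h (hνZ₀ w)
      rwa [hu₀, inv_mul_cancel_right] at this
    have h4 : w ^ p ^ k ∈ Z₀ := by rw [hwp]; exact Z₀.one_mem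
    exact hw (Cfsg.Agent.S4314.mem_of_pow_pow_coprime h3 h4 hcop)
  let U₁ : Subgroup M :=
    { carrier := {u | u ^ p ^ k = 1 ∧ ν u = 1}
      mul_mem' := by
        rintro a b ⟨ha1, ha2⟩ ⟨hb1, hb2⟩
        exact ⟨by rw [mul_pow, ha1, hb1, one_mul], by rw [hν_mul, ha2, hb2, one_mul]⟩
      one_mem' := ⟨one_pow _, hν_one⟩
      inv_mem' := by
        rintro a ⟨ha1, ha2⟩
        exact ⟨by rw [inv_pow, ha1, inv_one], by rw [hν_inv, ha2, inv_one]⟩ }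
  have hU₁mem : ∀ u, u ∈ U₁ ↔ u ^ p ^ k = 1 ∧ ν u = 1 := fun u => Iff.rfl
  have hU₁p : IsPGroup p U₁ := by
    rintro ⟨u, hu⟩
    exact ⟨k, Subtype.ext ((hU₁mem u).1 hu).1⟩
  have hU₁Z : ∀ u ∈ U₁, u ∈ Z₀ → u = 1 := by
    intro u hu huZ
    obtain ⟨hu1, hu2⟩ := (hU₁mem u).1 hu
    have h3 : u ^ n ∈ (⊥ : Subgroup M) := by
      rw [Subgroup.mem_bot, ← hν_Z u huZ, hu2]
    have h4 : u ^ p ^ k ∈ (⊥ : Subgroup M) := by rw [hu1]; exact Subgroup.one_mem _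
    exact Subgroup.mem_bot.1 (Cfsg.Agent.S4314.mem_of_pow_pow_coprime h3 h4 hcop)
  have hαU : ∀ u ∈ U₁, α u ∈ U₁ := by
    intro u hu
    obtain ⟨hu1, hu2⟩ := (hU₁mem u).1 hu
    rw [hU₁mem]
    exact ⟨by rw [← map_pow, hu1, map_one], by rw [hν_α, hu2, map_one]⟩
  have hpowU : ∀ (i : ℕ), ∀ u ∈ U₁, (α ^ i) u ∈ U₁ := by
    intro i
    induction i with
    | zero => intro u hu; rw [pow_zero]; exact hu
    | succ i ih =>
      intro u hu
      rw [pow_succ]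
      exact ih (α u) (hαU u hu)
  have hfin : IsOfFinOrder α :=
    isOfFinOrder_iff_pow_eq_one.2 ⟨p ^ kα, pow_pos hp.pos _, hαp⟩
  have hAU : ∀ a ∈ Subgroup.zpowers α, ∀ u ∈ U₁, a u ∈ U₁ := by
    intro a ha u hu
    rw [← mem_powers_iff_mem_zpowers] at ha
    obtain ⟨i, rfl⟩ := (Submonoid.mem_powers_iff _ _).1 ha
    exact hpowU i u hu
  letI : MulAction (Subgroup.zpowers α) U₁ :=
    { smul := fun a u => ⟨(a : MulAut M) (u : M), hAU a a.2 u u.2⟩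
      one_smul := fun u => Subtype.ext rfl
      mul_smul := fun a b u => Subtype.ext rfl }
  have hsmul : ∀ (a : Subgroup.zpowers α) (u : U₁), ((a • u : U₁) : M) = (a : MulAut M) (u : M) :=
    fun a u => rfl
  have hA : IsPGroup p (Subgroup.zpowers α) := by
    rintro ⟨a, ha⟩
    obtain ⟨i, rfl⟩ := Subgroup.mem_zpowers_iff.1 ha
    refine ⟨kα, Subtype.ext ?_⟩
    show (α ^ i) ^ p ^ kα = 1
    rw [← zpow_natCast, ← zpow_mul, mul_comm, zpow_mul, zpow_natCast, hαp, one_zpow]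
  have hu₀U : u₀ ∈ U₁ := (hU₁mem u₀).2 ⟨hu₀p, hu₀ν⟩
  have hpU : p ∣ Nat.card U₁ := by
    obtain ⟨i, hi⟩ := IsPGroup.iff_card.1 hU₁p
    have hi0 : i ≠ 0 := by
      intro h0
      rw [h0, pow_zero] at hi
      have hsub : Subsingleton U₁ := (Nat.card_eq_one_iff_unique.1 hi).1
      have h5 : (⟨u₀, hu₀U⟩ : U₁) = 1 := Subsingleton.elim _ _
      have h6 : u₀ = 1 := congrArg Subtype.val h5
      exact hu₀Z (h6 ▸ Z₀.one_mem)
    rw [hi]
    exact dvd_pow_self p hi0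
  have h1fix : (1 : U₁) ∈ MulAction.fixedPoints (Subgroup.zpowers α) U₁ := by
    intro a
    apply Subtype.ext
    rw [hsmul]
    exact map_one _
  obtain ⟨b, hbfix, hb1⟩ := hA.exists_fixed_point_of_prime_dvd_card_of_fixed_point U₁ hpU h1fix
  have hαb : α (b : M) = (b : M) := by
    have := hbfix ⟨α, Subgroup.mem_zpowers α⟩
    have h7 := congrArg Subtype.val this
    rw [hsmul] at h7
    exact h7
  have hbZ : (b : M) ∈ Z₀ := h2 α hα hα1 _ hαb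
  apply hb1
  apply Subtype.ext
  exact (hU₁Z _ b.2 hbZ).symm

/-- a `p`-subgroup of `Γ` is abelian when `M` has a `p`-element outside `Z₀`. -/
theorem pgroup_comm (Z₀ : Subgroup M) (Γ : Subgroup (MulAut M))
    (h1 : ∀ γ ∈ Γ, ∀ z ∈ Z₀, γ z = z)
    (h2 : ∀ γ ∈ Γ, γ ≠ 1 → ∀ c : M, γ c = c → c ∈ Z₀)
    (p : ℕ) [Fact p.Prime] (w : M) (hw : w ∉ Z₀) (k : ℕ) (hwp : w ^ p ^ k = 1)
    (Pi0 : Subgroup (MulAut M)) (hPi0Γ : Pi0 ≤ Γ) (hPi0 : IsPGroup p Pi0) :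
    ∀ a ∈ Pi0, ∀ b ∈ Pi0, a * b = b * a := by
  classical
  have hp : p.Prime := Fact.out
  have hcomap : ∀ π : Pi0, Z₀ ≤ Z₀.comap ((π : MulAut M) : M ≃* M).toMonoidHom := by
    intro π z hz
    rw [Subgroup.mem_comap]
    show (π : MulAut M) z ∈ Z₀
    rw [h1 π (hPi0Γ π.2) z hz]
    exact hz
  letI : MulAction Pi0 (M ⧸ Z₀) :=
    { smul := fun π x => QuotientGroup.map Z₀ Z₀ ((π : MulAut M) : M ≃* M).toMonoidHom (hcomap π) x
      one_smul := by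
        intro x
        induction x using QuotientGroup.induction_on with
        | H x => rfl
      mul_smul := by
        intro a b x
        induction x using QuotientGroup.induction_on with
        | H x => rfl }
  have hsmul : ∀ (π : Pi0) (x : M), π • (QuotientGroup.mk x : M ⧸ Z₀) =
      QuotientGroup.mk ((π : MulAut M) x) := fun π x => rfl
  have hpQ : p ∣ Nat.card (M ⧸ Z₀) := by
    have h3 : (QuotientGroup.mk w : M ⧸ Z₀) ^ p ^ k = 1 := by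
      rw [← QuotientGroup.mk_pow, hwp]; rfl
    have h4 : orderOf (QuotientGroup.mk w : M ⧸ Z₀) ∣ p ^ k := orderOf_dvd_of_pow_eq_one h3
    obtain ⟨i, -, hi⟩ := (Nat.dvd_prime_pow hp).1 h4
    have hi0 : i ≠ 0 := by
      intro h0
      rw [h0, pow_zero, orderOf_eq_one_iff, QuotientGroup.eq_one_iff] at hi
      exact hw hi
    have h5 : p ∣ orderOf (QuotientGroup.mk w : M ⧸ Z₀) := by rw [hi]; exact dvd_pow_self p hi0
    exact h5.trans (orderOf_dvd_natCard _)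
  have h1fix : (1 : M ⧸ Z₀) ∈ MulAction.fixedPoints Pi0 (M ⧸ Z₀) := by
    intro π
    show π • (QuotientGroup.mk (1 : M) : M ⧸ Z₀) = QuotientGroup.mk (1 : M)
    rw [hsmul, map_one]
  obtain ⟨cb, hcfix, hc1⟩ := hPi0.exists_fixed_point_of_prime_dvd_card_of_fixed_point (M ⧸ Z₀) hpQ h1fix
  obtain ⟨c, rfl⟩ := QuotientGroup.mk_surjective cb
  have hcZ : c ∉ Z₀ := by
    intro h
    apply hc1
    exact ((QuotientGroup.eq_one_iff c).2 h).symm
  have hd : ∀ π ∈ Pi0, c⁻¹ * (π c) ∈ Z₀ := by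
    intro π hπ
    have h3 := hcfix ⟨π, hπ⟩
    rw [hsmul] at h3
    exact QuotientGroup.eq.1 h3.symm
  intro a ha b hb
  have hab : (a * b) c = (b * a) c := by
    have ea : a c = c * (c⁻¹ * a c) := by rw [mul_inv_cancel_left]
    have eb : b c = c * (c⁻¹ * b c) := by rw [mul_inv_cancel_left]
    have e1 : (a * b) c = c * (c⁻¹ * a c) * (c⁻¹ * b c) := by
      show a (b c) = _
      rw [eb, map_mul, h1 a (hPi0Γ ha) _ (hd b hb), ← eb, ← ea]
    have e2 : (b * a) c = c * (c⁻¹ * b c) * (c⁻¹ * a c) := by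
      show b (a c) = _
      rw [ea, map_mul, h1 b (hPi0Γ hb) _ (hd a ha), ← ea, ← eb]
    rw [e1, e2, mul_right_comm]
  by_contra hne
  have hγ : (b * a)⁻¹ * (a * b) ≠ 1 := by
    intro h
    apply hne
    exact (inv_mul_eq_one.1 h).symm
  have hγΓ : (b * a)⁻¹ * (a * b) ∈ Γ :=
    Γ.mul_mem (Γ.inv_mem (Γ.mul_mem (hPi0Γ hb) (hPi0Γ ha))) (Γ.mul_mem (hPi0Γ ha) (hPi0Γ hb))
  have hfixc : ((b * a)⁻¹ * (a * b)) c = c := by
    show (b * a)⁻¹ ((a * b) c) = c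
    rw [hab, MulAut.inv_apply_self]
  exact hcZ (h2 _ hγΓ hγ c hfixc)

/-- an element of `Γ` acting trivially on the `r`-elements modulo `Z₀` is trivial. -/
theorem ker_trivial (Z₀ : Subgroup M) (Γ : Subgroup (MulAut M))
    (h1 : ∀ γ ∈ Γ, ∀ z ∈ Z₀, γ z = z)
    (h2 : ∀ γ ∈ Γ, γ ≠ 1 → ∀ c : M, γ c = c → c ∈ Z₀)
    {r q : ℕ} [Fact r.Prime] [Fact q.Prime] (hrq : r ≠ q)
    (w : M) (hw : w ∉ Z₀) (k : ℕ) (hwr : w ^ r ^ k = 1)
    (y : M) (hy : y ∉ Z₀) (j : ℕ) (hyq : y ^ q ^ j = 1)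
    (β : MulAut M) (hβΓ : β ∈ Γ) (hβ1 : β ≠ 1) (kβ : ℕ) (hβq : β ^ q ^ kβ = 1)
    (α : MulAut M) (hα : α ∈ Γ)
    (hαu : ∀ u : M, (∃ i : ℕ, u ^ r ^ i = 1) → α u * u⁻¹ ∈ Z₀) : α = 1 := by
  classical
  haveI : Finite (MulAut M) :=
    Finite.of_injective (fun e : MulAut M => (e : M → M)) DFunLike.coe_injective
  have hr : r.Prime := Fact.out
  have hq : q.Prime := Fact.out
  by_contra hα1
  let K₁ : Subgroup (MulAut M) :=
    { carrier := {γ | γ ∈ Γ ∧ ∀ u : M, (∃ i : ℕ, u ^ r ^ i = 1) → γ u * u⁻¹ ∈ Z₀}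
      mul_mem' := by
        rintro a b ⟨ha, ha'⟩ ⟨hb, hb'⟩
        refine ⟨Γ.mul_mem ha hb, fun u hu => ?_⟩
        have hd := hb' u hu
        have e1 : a (b u) = a (b u * u⁻¹) * a u := by rw [← map_mul, inv_mul_cancel_right]
        have e2 : (a * b) u * u⁻¹ = (b u * u⁻¹) * (a u * u⁻¹) := by
          show a (b u) * u⁻¹ = _
          rw [e1, h1 a ha _ hd, mul_assoc]
        rw [e2]
        exact Z₀.mul_mem hd (ha' u hu)
      one_mem' := ⟨Γ.one_mem, fun u _ => by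
        show u * u⁻¹ ∈ Z₀
        rw [mul_inv_cancel]; exact Z₀.one_mem⟩
      inv_mem' := by
        rintro a ⟨ha, ha'⟩
        refine ⟨Γ.inv_mem ha, fun u hu => ?_⟩
        obtain ⟨i, hi⟩ := hu
        have hv : ∃ i : ℕ, (a⁻¹ u) ^ r ^ i = 1 := ⟨i, by rw [← map_pow, hi, map_one]⟩
        have h3 := ha' (a⁻¹ u) hv
        rw [MulAut.apply_inv_self] at h3
        have e : a⁻¹ u * u⁻¹ = (u * (a⁻¹ u)⁻¹)⁻¹ := by rw [mul_inv_rev, inv_inv]
        rw [e]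
        exact Z₀.inv_mem h3 }
  have hKmem : ∀ γ, γ ∈ K₁ ↔ γ ∈ Γ ∧ ∀ u : M, (∃ i : ℕ, u ^ r ^ i = 1) → γ u * u⁻¹ ∈ Z₀ :=
    fun γ => Iff.rfl
  have hKΓ : K₁ ≤ Γ := fun γ hγ => ((hKmem γ).1 hγ).1
  have hKp : IsPGroup r K₁ := by
    rintro ⟨γ, hγ⟩
    obtain ⟨hγΓ, hγu⟩ := (hKmem γ).1 hγ
    refine ⟨k, Subtype.ext ?_⟩
    show γ ^ r ^ k = 1
    have hd := hγu w ⟨k, hwr⟩
    have hpow : ∀ n : ℕ, (γ ^ n) w = (γ w * w⁻¹) ^ n * w := by
      intro n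
      induction n with
      | zero => simp
      | succ n ih =>
        rw [pow_succ']
        show γ ((γ ^ n) w) = _
        rw [ih, map_mul, h1 γ hγΓ _ (Z₀.pow_mem hd n), pow_succ]
        have e : γ w = (γ w * w⁻¹) * w := by rw [inv_mul_cancel_right]
        rw [mul_assoc, ← e]
    have hdk : (γ w * w⁻¹) ^ r ^ k = 1 := by
      rw [mul_pow, ← map_pow, inv_pow, hwr, map_one, inv_one, mul_one]
    have hfix : (γ ^ r ^ k) w = w := by rw [hpow, hdk, one_mul]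
    by_contra hne
    exact hw (h2 _ (Γ.pow_mem hγΓ _) hne w hfix)
  have hK1 : K₁ ≠ ⊥ := by
    intro h
    apply hα1
    have : α ∈ K₁ := (hKmem α).2 ⟨hα, hαu⟩
    rw [h, Subgroup.mem_bot] at this
    exact this
  have hKq : ¬ q ∣ Nat.card K₁ := by
    obtain ⟨i, hi⟩ := IsPGroup.iff_card.1 hKp
    rw [hi]
    intro h
    exact hrq ((Nat.prime_dvd_prime_iff_eq hq hr).1 (hq.dvd_of_dvd_pow h)).symm
  have hnorm : ∀ b ∈ K₁, β * b * β⁻¹ ∈ K₁ := by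
    intro b hb
    obtain ⟨hbΓ, hbu⟩ := (hKmem b).1 hb
    rw [hKmem]
    refine ⟨Γ.mul_mem (Γ.mul_mem hβΓ hbΓ) (Γ.inv_mem hβΓ), fun u hu => ?_⟩
    obtain ⟨i, hi⟩ := hu
    have hv : ∃ i : ℕ, (β⁻¹ u) ^ r ^ i = 1 := ⟨i, by rw [← map_pow, hi, map_one]⟩
    have h3 := hbu (β⁻¹ u) hv
    have e : (β * b * β⁻¹) u * u⁻¹ = β (b (β⁻¹ u) * (β⁻¹ u)⁻¹) := by
      show β (b (β⁻¹ u)) * u⁻¹ = _
      rw [map_mul, map_inv, MulAut.apply_inv_self]
    rw [e, h1 β hβΓ _ h3]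
    exact h3
  exact pprop Z₀ Γ h1 h2 q y hy j hyq K₁ hKΓ hK1 hKq β hβΓ hβ1 kβ hβq hnorm

/-- the main contradiction. -/
theorem theta (Z₀ : Subgroup M) (Γ X : Subgroup (MulAut M)) (hXΓ : X ≤ Γ)
    (h1 : ∀ γ ∈ Γ, ∀ z ∈ Z₀, γ z = z)
    (h2 : ∀ γ ∈ Γ, γ ≠ 1 → ∀ c : M, γ c = c → c ∈ Z₀)
    (hXn : ∀ γ ∈ Γ, ∀ ξ ∈ X, γ * ξ * γ⁻¹ ∈ X)
    {r q : ℕ} [Fact r.Prime] [Fact q.Prime] (hrq : r ≠ q)
    (w : M) (hw : w ∉ Z₀) (k : ℕ) (hwr : w ^ r ^ k = 1)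
    (y : M) (hy : y ∉ Z₀) (j : ℕ) (hyq : y ^ q ^ j = 1)
    (α : MulAut M) (hαX : α ∈ X) (hα1 : α ≠ 1) (kα : ℕ) (hαr : α ^ r ^ kα = 1)
    (β : MulAut M) (hβΓ : β ∈ Γ) (hβ1 : β ≠ 1) (kβ : ℕ) (hβq : β ^ q ^ kβ = 1)
    (hXp : ∀ p : ℕ, p.Prime → ∀ ξ ∈ X, ξ ≠ 1 → ξ ^ p = 1 →
      ∃ c : M, c ∉ Z₀ ∧ ∃ i : ℕ, c ^ p ^ i = 1) : False := by
  classical
  haveI : Finite (MulAut M) :=
    Finite.of_injective (fun e : MulAut M => (e : M → M)) DFunLike.coe_injective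
  have hr : r.Prime := Fact.out
  have hq : q.Prime := Fact.out
  obtain ⟨P⟩ : Nonempty (Sylow r X) := inferInstance
  obtain ⟨Pi0, hPi0⟩ : ∃ Pi0 : Subgroup (MulAut M), Pi0 = (P : Subgroup X).map X.subtype := ⟨_, rfl⟩
  have hPi0mem : ∀ a : X, a ∈ (P : Subgroup X) → (a : MulAut M) ∈ Pi0 := by
    intro a ha
    rw [hPi0]
    exact Subgroup.mem_map_of_mem X.subtype ha
  have hPi0mem' : ∀ b ∈ Pi0, ∃ a : X, a ∈ (P : Subgroup X) ∧ (a : MulAut M) = b := by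
    intro b hb
    rw [hPi0] at hb
    obtain ⟨a, ha, rfl⟩ := Subgroup.mem_map.1 hb
    exact ⟨a, ha, rfl⟩
  have hPi0Γ : Pi0 ≤ Γ := by
    intro b hb
    obtain ⟨a, -, rfl⟩ := hPi0mem' b hb
    exact hXΓ a.2
  have hPi0p : IsPGroup r Pi0 := by
    rw [hPi0]
    exact P.isPGroup'.map X.subtype
  have hPi0comm := pgroup_comm Z₀ Γ h1 h2 r w hw k hwr Pi0 hPi0Γ hPi0p
  -- P is nontrivial
  have hrX : r ∣ Nat.card X := by
    have h3 : (⟨α, hαX⟩ : X) ^ r ^ kα = 1 := Subtype.ext hαr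
    have h4 : orderOf (⟨α, hαX⟩ : X) ∣ r ^ kα := orderOf_dvd_of_pow_eq_one h3
    obtain ⟨i, -, hi⟩ := (Nat.dvd_prime_pow hr).1 h4
    have hi0 : i ≠ 0 := by
      intro h0
      rw [h0, pow_zero, orderOf_eq_one_iff] at hi
      exact hα1 (congrArg Subtype.val hi)
    have h5 : r ∣ orderOf (⟨α, hαX⟩ : X) := by rw [hi]; exact dvd_pow_self r hi0
    exact h5.trans (orderOf_dvd_natCard _)
  have hPne : (P : Subgroup X) ≠ ⊥ := P.ne_bot_of_dvd_card hrX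
  have hPi0ne : Pi0 ≠ ⊥ := by
    rw [hPi0]
    intro h
    exact hPne ((Subgroup.map_eq_bot_iff_of_injective _ X.subtype_injective).1 h)
  have hPi0card : ∀ p : ℕ, p.Prime → p ≠ r → ¬ p ∣ Nat.card Pi0 := by
    intro p hp hpr h
    obtain ⟨i, hi⟩ := IsPGroup.iff_card.1 hPi0p
    rw [hi] at h
    exact hpr ((Nat.prime_dvd_prime_iff_eq hp hr).1 (hp.dvd_of_dvd_pow h))
  have hNC : Subgroup.normalizer ((P : Subgroup X) : Set X) ≤
      Subgroup.centralizer ((P : Subgroup X) : Set X) := by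
    intro ξ hξ
    have hξP : ξ ∈ (P : Subgroup X) := by
      by_cases hall : ∀ d : ℕ, d.Prime → d ∣ orderOf ξ → d = r
      · have ho : orderOf ξ ≠ 0 := (orderOf_pos ξ).ne'
        have h3 := Nat.eq_prime_pow_of_unique_prime_dvd ho (fun {d} hd hdo => hall d hd hdo)
        have h4 : IsPGroup r (Subgroup.zpowers ξ) := by
          apply IsPGroup.of_card (n := (orderOf ξ).primeFactorsList.length)
          rw [Nat.card_zpowers]
          exact h3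
        have h5 := h4.inf_normalizer_sylow P
        have h6 : ξ ∈ Subgroup.zpowers ξ ⊓ Subgroup.normalizer ((P : Subgroup X) : Set X) :=
          ⟨Subgroup.mem_zpowers ξ, hξ⟩
        exact (h5.le h6).2
      · exfalso
        push Not at hall
        obtain ⟨p, hp, hpo, hpr⟩ := hall
        haveI : Fact p.Prime := ⟨hp⟩
        have ho : orderOf ξ ≠ 0 := (orderOf_pos ξ).ne'
        have h3 : orderOf (ξ ^ (orderOf ξ / p)) = p := orderOf_pow_orderOf_div ho hpo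
        obtain ⟨ξ', hξ'⟩ : ∃ ξ' : X, ξ' = ξ ^ (orderOf ξ / p) := ⟨_, rfl⟩
        rw [← hξ'] at h3
        have hξ'1 : ξ' ≠ 1 := by
          intro h
          rw [h, orderOf_one] at h3
          exact hp.one_lt.ne h3
        have hξ'p : ξ' ^ p = 1 := by rw [← h3]; exact pow_orderOf_eq_one ξ'
        have hξ'N : ξ' ∈ Subgroup.normalizer ((P : Subgroup X) : Set X) := by
          rw [hξ']; exact Subgroup.pow_mem _ hξ _
        have hv1 : (ξ' : MulAut M) ≠ 1 := fun h => hξ'1 (Subtype.ext h)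
        have hvp : (ξ' : MulAut M) ^ p = 1 := congrArg Subtype.val hξ'p
        obtain ⟨c, hcZ, i, hci⟩ := hXp p hp (ξ' : MulAut M) ξ'.2 hv1 hvp
        refine pprop Z₀ Γ h1 h2 p c hcZ i hci Pi0 hPi0Γ hPi0ne (hPi0card p hp hpr) (ξ' : MulAut M)
          (hXΓ ξ'.2) hv1 1 (by rw [pow_one]; exact hvp) ?_
        intro b hb
        obtain ⟨a, ha, rfl⟩ := hPi0mem' b hb
        have h4 := (Subgroup.mem_normalizer_iff.1 hξ'N a).1 ha
        exact hPi0mem _ h4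
    rw [Subgroup.mem_centralizer_iff]
    intro b hb
    apply Subtype.ext
    exact hPi0comm _ (hPi0mem b hb) _ (hPi0mem ξ hξP)
  have hc := MonoidHom.ker_transferSylow_isComplement' P hNC
  have hKr := MonoidHom.not_dvd_card_ker_transferSylow P hNC
  by_cases hK : (MonoidHom.transferSylow P hNC).ker = ⊥
  · rw [hK] at hc
    have hPtop : (P : Subgroup X) = ⊤ := Subgroup.isComplement'_bot_left.1 hc
    have hXp' : IsPGroup r X := by
      intro x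
      have hx : x ∈ (P : Subgroup X) := by rw [hPtop]; exact Subgroup.mem_top x
      obtain ⟨i, hi⟩ := P.isPGroup' ⟨x, hx⟩
      exact ⟨i, congrArg Subtype.val hi⟩
    have hXq : ¬ q ∣ Nat.card X := by
      obtain ⟨i, hi⟩ := IsPGroup.iff_card.1 hXp'
      rw [hi]
      intro h
      exact hrq ((Nat.prime_dvd_prime_iff_eq hq hr).1 (hq.dvd_of_dvd_pow h)).symm
    have hX1 : X ≠ ⊥ := by
      intro h
      rw [h, Subgroup.mem_bot] at hαX
      exact hα1 hαX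
    exact pprop Z₀ Γ h1 h2 q y hy j hyq X hXΓ hX1 hXq β hβΓ hβ1 kβ hβq (hXn β hβΓ)
  · obtain ⟨B, hB⟩ : ∃ B : Subgroup (MulAut M),
        B = (MonoidHom.transferSylow P hNC).ker.map X.subtype := ⟨_, rfl⟩
    have hBΓ : B ≤ Γ := by
      intro b hb
      rw [hB] at hb
      obtain ⟨a, -, rfl⟩ := Subgroup.mem_map.1 hb
      exact hXΓ a.2
    have hB1 : B ≠ ⊥ := by
      rw [hB]
      intro h
      exact hK ((Subgroup.map_eq_bot_iff_of_injective _ X.subtype_injective).1 h)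
    have hBr : ¬ r ∣ Nat.card B := by
      rw [hB, Subgroup.card_map_of_injective X.subtype_injective]
      exact hKr
    have hnorm : ∀ b ∈ B, α * b * α⁻¹ ∈ B := by
      intro b hb
      rw [hB] at hb ⊢
      obtain ⟨a, ha, rfl⟩ := Subgroup.mem_map.1 hb
      have h3 := (MonoidHom.normal_ker (MonoidHom.transferSylow P hNC)).conj_mem a ha ⟨α, hαX⟩
      exact Subgroup.mem_map_of_mem X.subtype h3
    exact pprop Z₀ Γ h1 h2 r w hw k hwr B hBΓ hB1 hBr α (hXΓ hαX) hα1 kα hαr hnorm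

end Cfsg.Agent.Helper3.Theta
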