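import Cfsg.Agent.Lead.Frobenius
import Cfsg.Agent.Helper24.CharCliff
import Mathlib

/-!
Wielandt's generalisation of Frobenius' theorem (helper3): if `K ⊴ L ≤ G` and `L ∩ L^g ≤ K`
for all `g ∉ L`, then there is a normal subgroup `N` of `G` with `N ∩ L = K` and
`|G| ≤ |N| * [L : K]`.  Proof by characters, adapting lead's proof of Frobenius' theorem.
-/

set_option autoImplicit false
open Pointwise

namespace Cfsg.Agent.Helper3.Wielandt

open Cfsg Cfsg.Agent.Helper24 Cfsg.Agent.Lead Representation Module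

universe u

variable {G : Type u} [Group G]

theorem indFun_apply_mem [Fintype G] (L : Subgroup G) (α : L → ℂ) (hα : IsClassFunction L α)
    (hTI : ∀ x : G, x ∉ L → ∀ y : L, x * (y : G) * x⁻¹ ∈ L → α y = 0) (h : L) :
    indFun L α (h : G) = α h := by
  classical
  have hN : (Nat.card L : ℂ) ≠ 0 := Nat.cast_ne_zero.mpr Nat.card_pos.ne'
  have hterm : ∀ x : G, extendByZero L α (x⁻¹ * (h : G) * x) = if x ∈ L then α h else 0 := by
    intro x
    by_cases hx : x ∈ L
    · rw [if_pos hx]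
      have hmem : x⁻¹ * (h : G) * x ∈ L := L.mul_mem (L.mul_mem (L.inv_mem hx) h.2) hx
      rw [extendByZero_apply_mem _ _ hmem]
      have h0 := hα h (⟨x, hx⟩⁻¹ : L)
      rw [← h0]
      congr 1
      apply Subtype.ext
      simp
    · rw [if_neg hx]
      by_cases hmem : x⁻¹ * (h : G) * x ∈ L
      · rw [extendByZero_apply_mem _ _ hmem]
        apply hTI x hx ⟨x⁻¹ * (h : G) * x, hmem⟩
        have e : x * (x⁻¹ * (h : G) * x) * x⁻¹ = (h : G) := by group
        show x * (x⁻¹ * (h : G) * x) * x⁻¹ ∈ L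
        rw [e]; exact h.2
      · exact extendByZero_apply_not_mem _ _ hmem
  show (Nat.card L : ℂ)⁻¹ * ∑ x : G, extendByZero L α (x⁻¹ * (h : G) * x) = α h
  simp only [hterm]
  rw [← Finset.sum_filter, Finset.sum_const, nsmul_eq_mul]
  have hc : (Finset.univ.filter (fun x : G => x ∈ L)).card = Nat.card L := by
    rw [← Fintype.card_subtype]
    exact Fintype.card_eq_nat_card
  rw [hc, ← mul_assoc, inv_mul_cancel₀ hN, one_mul]

theorem indFun_apply_zero [Fintype G] (L : Subgroup G) (α : L → ℂ) (g : G)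
    (hg : ∀ x : G, extendByZero L α (x⁻¹ * g * x) = 0) : indFun L α g = 0 := by
  show (Nat.card L : ℂ)⁻¹ * ∑ x : G, extendByZero L α (x⁻¹ * g * x) = 0
  rw [Finset.sum_eq_zero (fun x _ => hg x), mul_zero]

theorem frobExt_res [Fintype G] (L : Subgroup G) (θ : L → ℂ) (hθ : IsClassFunction L θ)
    (hTI : ∀ x : G, x ∉ L → ∀ y : L, x * (y : G) * x⁻¹ ∈ L → θ y = θ 1) (h : L) :
    frobExt L θ (h : G) = θ h := by
  have hαcf : IsClassFunction L (fun h => θ h - θ 1) := by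
    intro a b
    show θ (b * a * b⁻¹) - θ 1 = θ a - θ 1
    rw [hθ a b]
  have h0 : indFun L (fun h => θ h - θ 1) (h : G) = θ h - θ 1 :=
    indFun_apply_mem L (fun h => θ h - θ 1) hαcf (fun x hx y hy => by
      show θ y - θ 1 = 0
      rw [hTI x hx y hy, sub_self]) h
  simp only [frobExt]
  rw [h0]; ring

theorem frobExt_isIrr' [Fintype G] (H : Subgroup G) (θ : IrrCharacter H)
    (hres : (fun h : H => frobExt H (θ : H → ℂ) (h : G)) = (θ : H → ℂ)) :
    IsIrrCharacter G (frobExt H (θ : H → ℂ)) := by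
  classical
  haveI : Fintype H := Fintype.ofFinite H
  obtain ⟨n, hn⟩ := irr_one_eq_natCast θ
  have hθcf : IsClassFunction H (θ : H → ℂ) := irr_isClassFunction θ
  obtain ⟨α, hα⟩ : ∃ α : H → ℂ, α = fun h => (θ : H → ℂ) h - (θ : H → ℂ) 1 := ⟨_, rfl⟩
  have hαeq : α = (θ : H → ℂ) - ((θ : H → ℂ) 1) • (fun _ : H => (1 : ℂ)) := by
    funext h; simp [hα]
  have hψeq : frobExt H (θ : H → ℂ) =
      indFun H α + ((θ : H → ℂ) 1) • (fun _ : G => (1 : ℂ)) := by
    funext g; simp [frobExt, hα]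
  have hψcf : IsClassFunction G (frobExt H (θ : H → ℂ)) := by
    intro g h
    simp only [frobExt]
    rw [indFun_isClassFunction H _ g h]
  have key : ∀ χ : G → ℂ, IsClassFunction G χ →
      classInner (frobExt H (θ : H → ℂ)) χ =
        classInner (θ : H → ℂ) (fun h : H => χ h)
          - (θ : H → ℂ) 1 * classInner (fun _ : H => (1 : ℂ)) (fun h : H => χ h)
          + (θ : H → ℂ) 1 * classInner (fun _ : G => (1 : ℂ)) χ := by
    intro χ hχ
    rw [hψeq, classInner_add_left, classInner_smul_left, classInner_indFun H α χ hχ, hαeq,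
      classInner_sub_left, classInner_smul_left]
  have h11H : classInner (fun _ : H => (1 : ℂ)) (fun _ : H => (1 : ℂ)) = 1 :=
    irr_inner_self (⟨_, isIrrCharacter_one⟩ : IrrCharacter H)
  have h11G : classInner (fun _ : G => (1 : ℂ)) (fun _ : G => (1 : ℂ)) = 1 :=
    irr_inner_self (⟨_, isIrrCharacter_one⟩ : IrrCharacter G)
  have hθθ : classInner (θ : H → ℂ) (θ : H → ℂ) = 1 := irr_inner_self θ
  have h1cf : IsClassFunction G (fun _ : G => (1 : ℂ)) := fun _ _ => rfl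
  have hψ1 : classInner (frobExt H (θ : H → ℂ)) (fun _ : G => (1 : ℂ)) =
      classInner (θ : H → ℂ) (fun _ : H => (1 : ℂ)) := by
    rw [key _ h1cf, h11H, h11G]; ring
  have hnorm : classInner (frobExt H (θ : H → ℂ)) (frobExt H (θ : H → ℂ)) = 1 := by
    rw [key _ hψcf, hres, hθθ, classInner_conj_symm (fun _ : G => (1 : ℂ)), hψ1,
      ← classInner_conj_symm]
    ring
  have hint : ∀ χ : IrrCharacter G,
      ∃ z : ℤ, classInner (frobExt H (θ : H → ℂ)) (χ : G → ℂ) = z := by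
    intro χ
    have hχres : IsCharacter H (fun h : H => (χ : G → ℂ) h) :=
      isCharacter_restrict H (isCharacter_of_isIrrCharacter χ.2)
    obtain ⟨k1, hk1⟩ := classInner_isCharacter_natCast (isCharacter_of_isIrrCharacter θ.2) hχres
    obtain ⟨k2, hk2⟩ := classInner_isCharacter_natCast
      (isCharacter_of_isIrrCharacter (isIrrCharacter_one (G := H))) hχres
    obtain ⟨k3, hk3⟩ := classInner_isCharacter_natCast
      (isCharacter_of_isIrrCharacter (isIrrCharacter_one (G := G)))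
      (isCharacter_of_isIrrCharacter χ.2)
    refine ⟨(k1 : ℤ) - n * k2 + n * k3, ?_⟩
    rw [key _ (irr_isClassFunction χ), hk1, hk2, hk3, hn]
    push_cast; ring
  have hψ1val : frobExt H (θ : H → ℂ) 1 = (θ : H → ℂ) 1 := by
    have h0 := congrFun hres 1
    simpa using h0
  have hpos : ∃ m : ℕ, m ≠ 0 ∧ frobExt H (θ : H → ℂ) 1 = m := by
    refine ⟨n, ?_, by rw [hψ1val, hn]⟩
    rintro rfl
    exact irr_one_ne_zero θ (by rw [hn]; simp)
  exact isIrrCharacter_of_int_inner hψcf hint hnorm hpos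

/-- Wielandt's theorem (existence of the normal subgroup). -/
theorem wielandt [Finite G] (L : Subgroup G) (K : Subgroup L) [hK : K.Normal]
    (hTI : ∀ x : G, x ∉ L → ∀ y : L, x * (y : G) * x⁻¹ ∈ L → y ∈ K) :
    ∃ N : Subgroup G, N.Normal ∧ (∀ y : L, (y : G) ∈ N ↔ y ∈ K) ∧
      (∀ g : G, (∀ x : G, ∀ hx : x⁻¹ * g * x ∈ L, (⟨x⁻¹ * g * x, hx⟩ : L) ∈ K) → g ∈ N) := by
  classical
  haveI : Fintype G := Fintype.ofFinite G
  have hΘ : ∀ θ : IrrCharacter (L ⧸ K),
      IsIrrCharacter L (fun y : L => (θ : L ⧸ K → ℂ) (QuotientGroup.mk' K y)) :=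
    fun θ => isIrrCharacter_comp_surj (QuotientGroup.mk' K) (QuotientGroup.mk'_surjective K) _ θ.2
  obtain ⟨Θ, hΘdef⟩ : ∃ Θ : IrrCharacter (L ⧸ K) → IrrCharacter L,
      ∀ θ, ((Θ θ : IrrCharacter L) : L → ℂ) =
        fun y : L => (θ : L ⧸ K → ℂ) (QuotientGroup.mk' K y) :=
    ⟨fun θ => ⟨_, hΘ θ⟩, fun θ => rfl⟩
  have hΘK : ∀ (θ : IrrCharacter (L ⧸ K)) (y : L), y ∈ K →
      ((Θ θ : IrrCharacter L) : L → ℂ) y = ((Θ θ : IrrCharacter L) : L → ℂ) 1 := by
    intro θ y hy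
    rw [hΘdef]
    show (θ : L ⧸ K → ℂ) (QuotientGroup.mk' K y) = (θ : L ⧸ K → ℂ) (QuotientGroup.mk' K 1)
    have e1 : (QuotientGroup.mk' K y : L ⧸ K) = 1 := (QuotientGroup.eq_one_iff y).mpr hy
    rw [e1, map_one]
  have hres : ∀ (θ : IrrCharacter (L ⧸ K)) (h : L),
      frobExt L ((Θ θ : IrrCharacter L) : L → ℂ) (h : G) = ((Θ θ : IrrCharacter L) : L → ℂ) h :=
    fun θ h => frobExt_res L _ (irr_isClassFunction (Θ θ))
      (fun x hx y hy => hΘK θ y (hTI x hx y hy)) h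
  have hex : ∀ θ : IrrCharacter (L ⧸ K), ∃ (n : ℕ) (ρ : Representation ℂ G (Fin n → ℂ)),
      ρ.character = frobExt L ((Θ θ : IrrCharacter L) : L → ℂ) := by
    intro θ
    obtain ⟨n, ρ, _, hρ⟩ := frobExt_isIrr' L (Θ θ) (funext (hres θ))
    exact ⟨n, ρ, hρ⟩
  choose n ρ hρ using hex
  obtain ⟨N, hN⟩ : ∃ N : Subgroup G, N = ⨅ θ : IrrCharacter (L ⧸ K), (ρ θ).ker := ⟨_, rfl⟩
  have hNn : N.Normal := by
    rw [hN]
    exact Subgroup.normal_iInf_normal (fun θ => MonoidHom.normal_ker (ρ θ))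
  have hker : ∀ (θ : IrrCharacter (L ⧸ K)) (g : G), g ∈ (ρ θ).ker ↔
      frobExt L ((Θ θ : IrrCharacter L) : L → ℂ) g =
        frobExt L ((Θ θ : IrrCharacter L) : L → ℂ) 1 := by
    intro θ g
    rw [MonoidHom.mem_ker, ← hρ θ, Representation.char_one]
    exact (char_eq_finrank_iff (ρ θ) g).symm
  have hψ1val : ∀ θ : IrrCharacter (L ⧸ K),
      frobExt L ((Θ θ : IrrCharacter L) : L → ℂ) 1 = ((Θ θ : IrrCharacter L) : L → ℂ) 1 :=
    fun θ => hres θ 1
  have hNmem : ∀ g : G, g ∈ N ↔ ∀ θ : IrrCharacter (L ⧸ K),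
      frobExt L ((Θ θ : IrrCharacter L) : L → ℂ) g = ((Θ θ : IrrCharacter L) : L → ℂ) 1 := by
    intro g
    rw [hN, Subgroup.mem_iInf]
    simp only [hker, hψ1val]
  refine ⟨N, hNn, ?_, ?_⟩
  · intro y
    rw [hNmem]
    constructor
    · intro hy
      by_contra hyK
      have h1' : (QuotientGroup.mk' K y : L ⧸ K) ≠ 1 :=
        fun e => hyK ((QuotientGroup.eq_one_iff y).mp e)
      obtain ⟨m, σ, hσ, hσh⟩ := exists_irr_not_mem_ker (QuotientGroup.mk' K y : L ⧸ K) h1'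
      have e1 := hy ⟨σ.character, m, σ, hσ, rfl⟩
      rw [hres, hΘdef] at e1
      have e2 : σ.character (QuotientGroup.mk' K y) = σ.character (QuotientGroup.mk' K 1) := e1
      rw [map_one, Representation.char_one] at e2
      exact hσh ((char_eq_finrank_iff σ _).mp e2)
    · intro hy θ
      rw [hres]
      exact hΘK θ y hy
  · intro g hg
    rw [hNmem]
    intro θ
    simp only [frobExt]
    rw [indFun_apply_zero, zero_add]
    intro x
    by_cases hx : x⁻¹ * g * x ∈ L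
    · rw [extendByZero_apply_mem _ _ hx]
      show ((Θ θ : IrrCharacter L) : L → ℂ) ⟨x⁻¹ * g * x, hx⟩
        - ((Θ θ : IrrCharacter L) : L → ℂ) 1 = 0
      rw [hΘK θ _ (hg x hx), sub_self]
    · exact extendByZero_apply_not_mem _ _ hx

/-- The counting half of Wielandt's theorem. -/
theorem count [Finite G] (L : Subgroup G) (K : Subgroup L) [hK : K.Normal] (N : Subgroup G)
    (hN : ∀ g : G, (∀ x : G, ∀ hx : x⁻¹ * g * x ∈ L, (⟨x⁻¹ * g * x, hx⟩ : L) ∈ K) → g ∈ N) :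
    Nat.card G ≤ Nat.card N * K.index := by
  classical
  obtain ⟨Ψ, hΨ⟩ : ∃ Ψ : N ⊕ ((G ⧸ L) × {d : L // d ∉ K}) → G,
      (∀ n : N, Ψ (Sum.inl n) = (n : G)) ∧
      (∀ (c : G ⧸ L) (d : {d : L // d ∉ K}), Ψ (Sum.inr (c, d)) = c.out * ((d : L) : G) * c.out⁻¹) :=
    ⟨Sum.elim (fun n => (n : G)) (fun p => p.1.out * ((p.2 : L) : G) * p.1.out⁻¹),
      fun n => rfl, fun c d => rfl⟩
  have hsurj : Function.Surjective Ψ := by
    intro g
    by_cases hgN : g ∈ N
    · exact ⟨Sum.inl ⟨g, hgN⟩, hΨ.1 _⟩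
    · have h1 : ¬ (∀ x : G, ∀ hx : x⁻¹ * g * x ∈ L, (⟨x⁻¹ * g * x, hx⟩ : L) ∈ K) :=
        fun h => hgN (hN g h)
      push Not at h1
      obtain ⟨x, hx, hxK⟩ := h1
      obtain ⟨c, hc⟩ : ∃ c : G ⧸ L, c = QuotientGroup.mk x := ⟨_, rfl⟩
      have hk : x⁻¹ * c.out ∈ L := by
        rw [← QuotientGroup.eq, ← hc]; exact (QuotientGroup.out_eq' _).symm
      have hh : c.out⁻¹ * g * c.out ∈ L := by
        have e : c.out⁻¹ * g * c.out = (x⁻¹ * c.out)⁻¹ * (x⁻¹ * g * x) * (x⁻¹ * c.out) := by group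
        rw [e]
        exact L.mul_mem (L.mul_mem (L.inv_mem hk) hx) hk
      have hd : (⟨c.out⁻¹ * g * c.out, hh⟩ : L) ∉ K := by
        intro hdK
        apply hxK
        have h2 := hK.conj_mem _ hdK (⟨x⁻¹ * c.out, hk⟩ : L)
        have e : (⟨x⁻¹ * c.out, hk⟩ : L) * ⟨c.out⁻¹ * g * c.out, hh⟩ * (⟨x⁻¹ * c.out, hk⟩ : L)⁻¹
            = ⟨x⁻¹ * g * x, hx⟩ := by
          apply Subtype.ext
          show x⁻¹ * c.out * (c.out⁻¹ * g * c.out) * (x⁻¹ * c.out)⁻¹ = x⁻¹ * g * x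
          group
        rw [e] at h2
        exact h2
      refine ⟨Sum.inr (c, ⟨⟨c.out⁻¹ * g * c.out, hh⟩, hd⟩), ?_⟩
      rw [hΨ.2]
      show c.out * (c.out⁻¹ * g * c.out) * c.out⁻¹ = g
      group
  have h1 : Nat.card G ≤ Nat.card N + L.index * Nat.card {d : L // d ∉ K} := by
    have h0 := Nat.card_le_card_of_surjective Ψ hsurj
    rw [Nat.card_sum, Nat.card_prod] at h0
    exact h0
  have h2 : Nat.card K + Nat.card {d : L // d ∉ K} = Nat.card L := by
    rw [← Nat.card_sum]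
    exact Nat.card_congr (Equiv.Set.sumCompl (K : Set L))
  have h3 : K.index * Nat.card K = Nat.card L := K.index_mul_card
  have h4 : L.index * Nat.card L = Nat.card G := L.index_mul_card
  have h5 : L.index * Nat.card K ≤ Nat.card N := by
    have h6 : L.index * Nat.card K + L.index * Nat.card {d : L // d ∉ K} = Nat.card G := by
      rw [← Nat.mul_add, h2, h4]
    generalize L.index * Nat.card K = a at h6 ⊢
    generalize L.index * Nat.card {d : L // d ∉ K} = b at h6 h1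
    omega
  calc Nat.card G = L.index * Nat.card L := h4.symm
    _ = L.index * Nat.card K * K.index := by rw [← h3]; ring
    _ ≤ Nat.card N * K.index := Nat.mul_le_mul_right _ h5

theorem card_mul_le {G : Type*} [Group G] [Finite G] (A B : Subgroup G) (h : Disjoint A B) :
    Nat.card A * Nat.card B ≤ Nat.card G := by
  rw [← Nat.card_prod]
  apply Nat.card_le_card_of_injective (fun p : A × B => (p.1 : G) * (p.2 : G))
  rintro ⟨a, b⟩ ⟨a', b'⟩ hab
  have hab' : (a : G) * (b : G) = (a' : G) * (b' : G) := hab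
  have h1 : (a' : G)⁻¹ * (a : G) = (b' : G) * (b : G)⁻¹ := by
    calc (a' : G)⁻¹ * (a : G) = (a' : G)⁻¹ * ((a : G) * (b : G)) * (b : G)⁻¹ := by group
      _ = (a' : G)⁻¹ * ((a' : G) * (b' : G)) * (b : G)⁻¹ := by rw [hab']
      _ = (b' : G) * (b : G)⁻¹ := by group
  have h2 : (a' : G)⁻¹ * (a : G) = 1 := by
    apply Subgroup.disjoint_def.mp h (A.mul_mem (A.inv_mem a'.2) a.2)
    rw [h1]; exact B.mul_mem b'.2 (B.inv_mem b.2)
  have h3 : (a : G) = (a' : G) := by
    calc (a : G) = (a' : G) * ((a' : G)⁻¹ * (a : G)) := by group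
      _ = (a' : G) := by rw [h2, mul_one]
  have h4 : (b : G) = (b' : G) := by
    rw [h3] at hab'
    exact mul_left_cancel hab'
  exact Prod.ext (Subtype.ext h3) (Subtype.ext h4)

end Cfsg.Agent.Helper3.Wielandt
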